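import Groth.Agent.Dual.H343.Setup
import Groth.Agent.CurvesA.HHMap
import Groth.Agent.Sga67.ClosedPush

/-!
# `R^j Hom(O_D, M)` for an effective Cartier divisor

`L ⊗ I ≅ O_X`; `T = L ⊗ -` is an inverse equivalence of `I ⊗ -`.
-/

set_option autoImplicit false
universe v u

open CategoryTheory CategoryTheory.Limits AlgebraicGeometry Opposite MonoidalCategory
open scoped Groth.Agent.Dcoh.MonCat

namespace Groth.Agent.Dual.H343.Inv

open Groth.Agent.Dual.H343.Setup

section Abstract

variable {C : Type u} [Category.{v} C] [MonoidalCategory C] [BraidedCategory C]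

/-- Tensoring with an invertible object is an equivalence. -/
noncomputable def tensorEquiv (L J : C) (e : L ⊗ J ≅ 𝟙_ C) : C ≌ C :=
  CategoryTheory.Equivalence.mk (tensorLeft J) (tensorLeft L)
    (NatIso.ofComponents (fun M => (λ_ M).symm ≪≫ whiskerRightIso e.symm M ≪≫ α_ L J M) (by
      intro M N f
      change f ≫ (λ_ N).inv ≫ e.inv ▷ N ≫ (α_ L J N).hom =
        ((λ_ M).inv ≫ e.inv ▷ M ≫ (α_ L J M).hom) ≫ L ◁ (J ◁ f)
      rw [leftUnitor_inv_naturality_assoc, whisker_exchange_assoc, associator_naturality_right,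
        Category.assoc, Category.assoc]))
    (NatIso.ofComponents (fun M => (α_ J L M).symm ≪≫ whiskerRightIso (β_ J L ≪≫ e) M ≪≫ λ_ M) (by
      intro M N f
      change J ◁ (L ◁ f) ≫ (α_ J L N).inv ≫ (β_ J L ≪≫ e).hom ▷ N ≫ (λ_ N).hom =
        ((α_ J L M).inv ≫ (β_ J L ≪≫ e).hom ▷ M ≫ (λ_ M).hom) ≫ f
      rw [Category.assoc, Category.assoc, ← leftUnitor_naturality, ← whisker_exchange_assoc,
        associator_inv_naturality_right_assoc]))

/-- The adjunction `J ⊗ - ⊣ L ⊗ -`. -/
noncomputable def tensorAdj (L J : C) (e : L ⊗ J ≅ 𝟙_ C) : tensorLeft J ⊣ tensorLeft L :=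
  (tensorEquiv L J e).toAdjunction

theorem isEquivalence_left (L J : C) (e : L ⊗ J ≅ 𝟙_ C) : (tensorLeft J).IsEquivalence :=
  (tensorEquiv L J e).isEquivalence_functor

theorem isEquivalence_right (L J : C) (e : L ⊗ J ≅ 𝟙_ C) : (tensorLeft L).IsEquivalence :=
  (tensorEquiv L J e).isEquivalence_inverse

end Abstract

section Scheme

variable {X : Scheme.{u}} (I : X.IdealSheafData)

open Groth.Agent.FormalB.TrKQuot in
theorem mul_comp_kπ (M : X.Modules) : mul I M ≫ kπ I M = 0 := mul_comp_unit M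

open Groth.Agent.FormalB.TrKQuot in
theorem exists_fac_kπ (M : X.Modules) : ∃ g : kq I M ⟶ cokernel (mul I M), kπ I M ≫ g = cokernel.π (mul I M) :=
  exists_fac (cokernel.π (mul I M)) (cokernel.condition _)

open Groth.Agent.FormalB.TrKQuot in
/-- `coker (I ⊗ M ⟶ M) ≅ i_* i^* M`. -/
noncomputable def cokerMulIso (M : X.Modules) : cokernel (mul I M) ≅ kq I M where
  hom := cokernel.desc _ (kπ I M) (mul_comp_kπ I M)
  inv := (exists_fac_kπ I M).choose
  hom_inv_id := by
    have h := (exists_fac_kπ I M).choose_spec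
    rw [← cancel_epi (cokernel.π (mul I M)), cokernel.π_desc_assoc, Category.comp_id]
    exact h
  inv_hom_id := by
    have h := (exists_fac_kπ I M).choose_spec
    have he := epi_kπ I M
    rw [← cancel_epi (kπ I M), Category.comp_id, ← Category.assoc, h, cokernel.π_desc]

/-- `L ⊗ i_* i^* O_X ≅ i_* i^* L`. -/
noncomputable def tensorQuotIso (L : X.Modules) :
    L ⊗ Groth.Agent.FormalB.TrKQuot.kq I (𝟙_ X.Modules) ≅ Groth.Agent.FormalB.TrKQuot.kq I L :=
  whiskerLeftIso L ((Scheme.Modules.pushforward I.subschemeι).mapIso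
    (Groth.Agent.CurvesA.HHMap.pullbackUnit I.subschemeι : _ ≅ 𝟙_ _)) ≪≫
    β_ L ((Scheme.Modules.pushforward I.subschemeι).obj (𝟙_ _)) ≪≫
    @asIso _ _ _ _ (Groth.Agent.Dcoh.ClosedProj.proj I.subschemeι (𝟙_ _) L)
      (Groth.Agent.Dcoh.ClosedProj.isIso_proj I.subschemeι (𝟙_ _) L) ≪≫
    (Scheme.Modules.pushforward I.subschemeι).mapIso (λ_ ((Scheme.Modules.pullback I.subschemeι).obj L))

/-- Vanishing descends along `i_*`. -/
theorem isZero_of_pushforward {N : I.subscheme.Modules}
    (h : IsZero ((Scheme.Modules.pushforward I.subschemeι).obj N)) : IsZero N := by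
  have h5 := Groth.Agent.FormalB.TrKQuot.faithful_pushforward I.subschemeι
  rw [IsZero.iff_id_eq_zero]
  apply (Scheme.Modules.pushforward I.subschemeι).map_injective
  exact h.eq_of_src _ _

/-- `i_* N ≅ i_* N'` gives `N ≅ N'`. -/
noncomputable def isoOfPushforward {N N' : I.subscheme.Modules}
    (e : (Scheme.Modules.pushforward I.subschemeι).obj N ≅ (Scheme.Modules.pushforward I.subschemeι).obj N') :
    N ≅ N' :=
  haveI := Groth.Agent.FormalB.TrKQuot.isIso_counit I N
  haveI := Groth.Agent.FormalB.TrKQuot.isIso_counit I N'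
  (asIso ((Scheme.Modules.pullbackPushforwardAdjunction I.subschemeι).counit.app N)).symm ≪≫
    (Scheme.Modules.pullback I.subschemeι).mapIso e ≪≫
    asIso ((Scheme.Modules.pullbackPushforwardAdjunction I.subschemeι).counit.app N')

variable (L : X.Modules) (e : L ⊗ ClSub.idealMod I ≅ 𝟙_ X.Modules)
  {G : X.Modules ⥤ I.subscheme.Modules} (adj₂ : Scheme.Modules.pushforward I.subschemeι ⊣ G) [G.Additive]
  [HasInjectiveResolutions X.Modules]

include adj₂ e in
theorem isZero_rightDerived (M : X.Modules) (n : ℕ) : IsZero ((G.rightDerived (n + 2)).obj M) := by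
  have : (tensorLeft L).IsEquivalence := isEquivalence_right L (ClSub.idealMod I) e
  have := Groth.Agent.Sga67.ClosedPush.preservesFiniteColimits_pushforward I.subschemeι
  have h := Mate.isZero_rightDerived (tensorAdj L (ClSub.idealMod I) e) (mulNat I)
    (Scheme.Modules.pullbackPushforwardAdjunction I.subschemeι) adj₂
    (fun A => Groth.Agent.FormalB.TrKQuot.epi_kπ I A) (fun A => mul_comp_unit A)
    (fun A B g hg => exists_fac g hg) (fun B => exists_cover B) M n
  exact isZero_of_pushforward I (h.of_iso (Groth.Agent.Sga4h.RightDer.rightDerivedCompExact G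
    (Scheme.Modules.pushforward I.subschemeι) (n + 2) M).symm)

include adj₂ e in
theorem nonempty_iso_one : Nonempty ((G.rightDerived 1).obj (𝟙_ X.Modules) ≅
    (Scheme.Modules.pullback I.subschemeι).obj L) := by
  have : (tensorLeft L).IsEquivalence := isEquivalence_right L (ClSub.idealMod I) e
  have : (tensorLeft (ClSub.idealMod I)).IsEquivalence := isEquivalence_left L (ClSub.idealMod I) e
  have := Groth.Agent.Sga67.ClosedPush.preservesFiniteColimits_pushforward I.subschemeι
  obtain ⟨h⟩ := Mate.nonempty_iso_one (tensorAdj L (ClSub.idealMod I) e) (mulNat I)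
    (Scheme.Modules.pullbackPushforwardAdjunction I.subschemeι) adj₂
    (fun A => Groth.Agent.FormalB.TrKQuot.epi_kπ I A) (fun A => mul_comp_unit A)
    (fun A B g hg => exists_fac g hg) (fun B => exists_cover B) (𝟙_ X.Modules)
  exact ⟨isoOfPushforward I ((Groth.Agent.Sga4h.RightDer.rightDerivedCompExact G
    (Scheme.Modules.pushforward I.subschemeι) 1 (𝟙_ X.Modules)).symm ≪≫ h ≪≫
    Mate.cokernelEtaIso (tensorAdj L (ClSub.idealMod I) e) (mulNat I) (𝟙_ X.Modules) ≪≫
    whiskerLeftIso L (cokerMulIso I (𝟙_ X.Modules)) ≪≫ tensorQuotIso I L)⟩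

include adj₂ e in
omit [HasInjectiveResolutions X.Modules] in
theorem isZero_obj : IsZero (G.obj (𝟙_ X.Modules)) := by
  have : (tensorLeft (ClSub.idealMod I)).IsEquivalence := isEquivalence_left L (ClSub.idealMod I) e
  have hM : Mono ((mulNat I).app (𝟙_ X.Modules)) := mono_mul_structure
  have h1 := Mate.mono_eta (tensorAdj L (ClSub.idealMod I) e) (mulNat I) (𝟙_ X.Modules) hM
  exact isZero_of_pushforward I (Mate.isZero_obj (tensorAdj L (ClSub.idealMod I) e) (mulNat I)
    (Scheme.Modules.pullbackPushforwardAdjunction I.subschemeι) adj₂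
    (fun A => Groth.Agent.FormalB.TrKQuot.epi_kπ I A) (fun A => mul_comp_unit A) (𝟙_ X.Modules) h1)

end Scheme

end Groth.Agent.Dual.H343.Inv
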