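import Groth.Agent.Sga4h.FunLES
import Mathlib.CategoryTheory.Adjunction.Basic

/-!
# Right derived functors of a functor `G` with `i_* G M = ker (M ⟶ T M)`

Abstract setting: `P ⊣ Q ⊣ G` (`i^* ⊣ i_* ⊣ Hom(O_Z, -)`), `T' ⊣ T` and `ε : T' ⟶ 𝟭` with
`T' A ⟶ A ⟶ Q P A ⟶ 0` right exact.  Then `0 ⟶ Q G M ⟶ M ⟶ T M` is exact, and `M ⟶ T M` is epi for `M`
injective if every object is a quotient of an object `A` with `ε_A` mono.
-/

set_option autoImplicit false
set_option linter.unusedSectionVars false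

namespace Groth.Agent.Dual.H343.Mate

universe v u v' u'

open CategoryTheory Category Limits

variable {C : Type u} [Category.{v} C] [Abelian C] {T' T : C ⥤ C} (adj : T' ⊣ T) (ε : T' ⟶ 𝟭 C)

/-- The mate `M ⟶ T M` of `ε : T' M ⟶ M`. -/
def eta : 𝟭 C ⟶ T where
  app M := adj.homEquiv M M (ε.app M)
  naturality M N f := by
    have h : T'.map f ≫ ε.app N = ε.app M ≫ f := ε.naturality f
    exact (adj.homEquiv_naturality_left f (ε.app N)).symm.trans
      ((congrArg (adj.homEquiv M N) h).trans (adj.homEquiv_naturality_right (ε.app M) f))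

theorem eta_app (M : C) : (eta adj ε).app M = adj.homEquiv M M (ε.app M) := rfl

/-- `a ≫ η_M` is the mate of `ε_A ≫ a`. -/
theorem comp_eta {A M : C} (a : A ⟶ M) :
    a ≫ (eta adj ε).app M = adj.homEquiv A M (ε.app A ≫ a) := by
  have h : T'.map a ≫ ε.app M = ε.app A ≫ a := ε.naturality a
  exact (adj.homEquiv_naturality_left a (ε.app M)).symm.trans (congrArg (adj.homEquiv A M) h)

theorem comp_eta_eq_zero_iff [T'.PreservesZeroMorphisms] [T.PreservesZeroMorphisms] {A M : C} (a : A ⟶ M) :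
    a ≫ (eta adj ε).app M = 0 ↔ ε.app A ≫ a = 0 := by
  rw [comp_eta]
  constructor
  · intro h
    have h1 : (adj.homEquiv A M) (0 : T'.obj A ⟶ M) = 0 := by
      rw [Adjunction.homEquiv_unit, Functor.map_zero, comp_zero]
    exact (adj.homEquiv A M).injective (h.trans h1.symm)
  · intro h
    rw [h, Adjunction.homEquiv_unit, Functor.map_zero, comp_zero]

/-- `η_J` is epi for `J` injective. -/
theorem epi_eta (J : C) [Injective J]
    (hC : ∃ (A : C) (π : A ⟶ T.obj J), Epi π ∧ Mono (ε.app A)) : Epi ((eta adj ε).app J) := by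
  obtain ⟨A, π, hπ, hA⟩ := hC
  let p : T'.obj A ⟶ J := (adj.homEquiv A J).symm π
  let q : A ⟶ J := Injective.factorThru p (ε.app A)
  have h1 : q ≫ (eta adj ε).app J = π := by
    rw [comp_eta]
    have h2 : ε.app A ≫ q = p := Injective.comp_factorThru p (ε.app A)
    rw [h2]
    exact (adj.homEquiv A J).apply_symm_apply π
  exact epi_of_epi_fac h1

section

variable {D : Type u'} [Category.{v'} D] [Abelian D] {P : C ⥤ D} {Q : D ⥤ C} {G : C ⥤ D}
  (adj₁ : P ⊣ Q) (adj₂ : Q ⊣ G) [T'.PreservesZeroMorphisms] [T.PreservesZeroMorphisms]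
  [Q.PreservesZeroMorphisms] [G.PreservesZeroMorphisms]
  (he : ∀ A, Epi (adj₁.unit.app A)) (hw : ∀ A, ε.app A ≫ adj₁.unit.app A = 0)
  (hd : ∀ (A B : C) (g : A ⟶ B), ε.app A ≫ g = 0 → ∃ g' : Q.obj (P.obj A) ⟶ B, adj₁.unit.app A ≫ g' = g)

include he in
theorem mono_counit (M : C) : Mono (adj₂.counit.app M) := by
  refine Preadditive.mono_of_cancel_zero _ ?_
  intro A a ha
  have h1 : a = adj₁.unit.app A ≫ Q.map ((adj₁.homEquiv A (G.obj M)).symm a) :=
    ((adj₁.homEquiv A (G.obj M)).apply_symm_apply a).symm.trans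
      (adj₁.homEquiv_unit _ _ _)
  have h2 : Q.map ((adj₁.homEquiv A (G.obj M)).symm a) ≫ adj₂.counit.app M = 0 := by
    have := he A
    rw [← cancel_epi (adj₁.unit.app A), ← Category.assoc, ← h1, comp_zero]
    exact ha
  have h3 : (adj₁.homEquiv A (G.obj M)).symm a = 0 := by
    apply (adj₂.homEquiv (P.obj A) M).symm.injective
    refine (adj₂.homEquiv_counit _ _ _).trans (h2.trans ?_)
    refine Eq.symm ((adj₂.homEquiv_counit _ _ _).trans ?_)
    rw [Functor.map_zero, zero_comp]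
  rw [h1, h3, Functor.map_zero, comp_zero]

include hw in
theorem ε_app_obj (N : D) : ε.app (Q.obj N) = 0 := by
  have h1 : adj₁.unit.app (Q.obj N) ≫ Q.map (adj₁.counit.app N) = 𝟙 _ := adj₁.right_triangle_components N
  have h2 := hw (Q.obj N)
  rw [← comp_id (ε.app (Q.obj N))]
  refine (congrArg (ε.app (Q.obj N) ≫ ·) h1.symm).trans ?_
  refine (Category.assoc _ _ _).symm.trans ?_
  refine (congrArg (· ≫ Q.map (adj₁.counit.app N)) h2).trans zero_comp

include hw in
theorem counit_comp_eta (M : C) : adj₂.counit.app M ≫ (eta adj ε).app M = 0 := by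
  have h := (comp_eta_eq_zero_iff adj ε (adj₂.counit.app M)).2
  refine h ?_
  have h2 : ε.app (Q.obj (G.obj M)) = 0 := ε_app_obj ε adj₁ hw (G.obj M)
  exact (congrArg (· ≫ adj₂.counit.app M) h2).trans zero_comp

include hd in
theorem exact_counit_eta (M : C) (w : adj₂.counit.app M ≫ (eta adj ε).app M = 0) :
    (ShortComplex.mk (adj₂.counit.app M) ((eta adj ε).app M) w).Exact := by
  rw [ShortComplex.exact_iff_exact_up_to_refinements]
  intro A a ha
  have h1 : ε.app A ≫ a = 0 := (comp_eta_eq_zero_iff adj ε a).1 ha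
  obtain ⟨b, hb⟩ := hd A _ a h1
  refine ⟨A, 𝟙 A, inferInstance, adj₁.unit.app A ≫ Q.map (adj₂.homEquiv (P.obj A) M b), ?_⟩
  have h2 : Q.map (adj₂.homEquiv (P.obj A) M b) ≫ adj₂.counit.app M = b :=
    (adj₂.homEquiv_counit _ _ _).symm.trans
      ((adj₂.homEquiv (P.obj A) M).symm_apply_apply b)
  change 𝟙 A ≫ a = (adj₁.unit.app A ≫ Q.map (adj₂.homEquiv (P.obj A) M b)) ≫ adj₂.counit.app M
  rw [id_comp, Category.assoc]
  exact hb.symm.trans (congrArg (adj₁.unit.app A ≫ ·) h2.symm)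

include he hw hd in
theorem shortExact (J : C) [Injective J] (w : adj₂.counit.app J ≫ (eta adj ε).app J = 0)
    (hC : ∃ (A : C) (π : A ⟶ T.obj J), Epi π ∧ Mono (ε.app A)) :
    (ShortComplex.mk (adj₂.counit.app J) ((eta adj ε).app J) w).ShortExact where
  exact := exact_counit_eta adj ε adj₁ adj₂ hd J w
  mono_f := mono_counit adj₁ adj₂ he J
  epi_g := epi_eta adj ε J hC

include adj₂ hw he in
/-- `Q G M = 0` if `M ⟶ T M` is mono. -/
theorem isZero_obj (M : C) (hM : Mono ((eta adj ε).app M)) : IsZero ((G ⋙ Q).obj M) := by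
  have h1 : adj₂.counit.app M ≫ (eta adj ε).app M = 0 := counit_comp_eta adj ε adj₁ adj₂ hw M
  have h2 : adj₂.counit.app M = 0 := by
    rw [← cancel_mono ((eta adj ε).app M), h1, zero_comp]
  have h3 := mono_counit adj₁ adj₂ he M
  rw [IsZero.iff_id_eq_zero, ← cancel_mono (adj₂.counit.app M), h2, comp_zero, comp_zero]

end

section Derived

variable [HasInjectiveResolutions C] {D : Type u'} [Category.{v'} D] [Abelian D] {P : C ⥤ D} {Q : D ⥤ C} {G : C ⥤ D}
  (adj₁ : P ⊣ Q) (adj₂ : Q ⊣ G) [T'.Additive] [T.Additive] [Q.Additive] [G.Additive]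
  (he : ∀ A, Epi (adj₁.unit.app A)) (hw : ∀ A, ε.app A ≫ adj₁.unit.app A = 0)
  (hd : ∀ (A B : C) (g : A ⟶ B), ε.app A ≫ g = 0 → ∃ g' : Q.obj (P.obj A) ⟶ B, adj₁.unit.app A ≫ g' = g)
  (hC : ∀ B : C, ∃ (A : C) (π : A ⟶ B), Epi π ∧ Mono (ε.app A))
  [PreservesFiniteLimits T] [PreservesFiniteColimits T] [PreservesFiniteColimits Q]

include adj adj₂ he hw hd hC in
/-- `Q (R^{n+2} G M) = 0`. -/
theorem isZero_rightDerived (M : C) (n : ℕ) : IsZero (((G ⋙ Q).rightDerived (n + 2)).obj M) := by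
  let w : ∀ M, adj₂.counit.app M ≫ (eta adj ε).app M = 0 := counit_comp_eta adj ε adj₁ adj₂ hw
  have h : ∀ I : C, Injective I → (ShortComplex.mk (adj₂.counit.app I) ((eta adj ε).app I) (w I)).ShortExact :=
    fun I hI => shortExact adj ε adj₁ adj₂ he hw hd I (w I) (hC _)
  have h1 := Sga4h.FunLES.exact₁ adj₂.counit (eta adj ε) w h M (n + 1)
  have h2 : IsZero ((T.rightDerived (n + 1)).obj M) := Sga4h.FunLES.isZero_rightDerived_of_exact T M n
  have h3 : IsZero (((𝟭 C).rightDerived (n + 1 + 1)).obj M) :=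
    Sga4h.FunLES.isZero_rightDerived_of_exact (𝟭 C) M (n + 1)
  exact h1.isZero_of_both_zeros (h2.eq_of_src _ _) (h3.eq_of_tgt _ _)

include adj adj₂ he hw hd hC in
/-- `Q (R^1 G M) = coker (M ⟶ T M)`. -/
theorem nonempty_iso_one (M : C) :
    Nonempty (((G ⋙ Q).rightDerived 1).obj M ≅ cokernel ((eta adj ε).app M)) := by
  let w : ∀ M, adj₂.counit.app M ≫ (eta adj ε).app M = 0 := counit_comp_eta adj ε adj₁ adj₂ hw
  have h : ∀ I : C, Injective I → (ShortComplex.mk (adj₂.counit.app I) ((eta adj ε).app I) (w I)).ShortExact :=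
    fun I hI => shortExact adj ε adj₁ adj₂ he hw hd I (w I) (hC _)
  have h1 := Sga4h.FunLES.exact₀ adj₂.counit (eta adj ε) w h M
  have h2 : Epi (Sga4h.FunLES.δ₀ adj₂.counit (eta adj ε) w h M) :=
    Sga4h.FunLES.epi_δ₀ adj₂.counit (eta adj ε) w h M (Sga4h.FunLES.isZero_rightDerived_of_exact (𝟭 C) M 0)
  exact ⟨IsColimit.coconePointUniqueUpToIso h1.gIsCokernel (colimit.isColimit (parallelPair ((eta adj ε).app M) 0))⟩

end Derived

/-- `η_M` is mono iff `ε_M` is, if `T'` is an equivalence. -/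
theorem mono_eta [T'.IsEquivalence] (M : C) (hM : Mono (ε.app M)) : Mono ((eta adj ε).app M) := by
  have h2 : T'.map ((eta adj ε).app M) ≫ adj.counit.app M = ε.app M :=
    (adj.homEquiv_counit _ _ _).symm.trans
      ((adj.homEquiv M M).symm_apply_apply (ε.app M))
  have h3 : Mono (T'.map ((eta adj ε).app M) ≫ adj.counit.app M) := by rw [h2]; exact hM
  have h4 : Mono (T'.map ((eta adj ε).app M)) := mono_of_mono _ (adj.counit.app M)
  exact T'.mono_of_mono_map h4

/-- `coker η_M ≅ T (coker ε_M)` if `T'` is an equivalence. -/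
noncomputable def cokernelEtaIso [T'.IsEquivalence] (M : C) :
    cokernel ((eta adj ε).app M) ≅ T.obj (cokernel (ε.app M)) :=
  haveI : IsIso adj.counit := inferInstance
  haveI : IsIso adj.unit := inferInstance
  haveI : T.IsEquivalence := adj.isEquivalence_right_of_isEquivalence_left
  -- `η_M = unit_M ≫ T (ε_M)`
  (cokernelIsoOfEq (adj.homEquiv_unit _ _ _ : (eta adj ε).app M = adj.unit.app M ≫ T.map (ε.app M))) ≪≫
    cokernelEpiComp (adj.unit.app M) (T.map (ε.app M)) ≪≫
    (PreservesCokernel.iso T (ε.app M)).symm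

end Groth.Agent.Dual.H343.Mate
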