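import Groth.Agent.Etrest.RDer1

/-!
# Cohomology of `R G (K)` for `K ∈ D^+` isomorphic to a single object in degree `0`
-/

set_option autoImplicit false
universe w w' v v' u u'
open CategoryTheory CategoryTheory.Limits

namespace Groth.Agent.Dual.H343.RDPlus

open Groth.Agent.Etrest.RDer1

variable {A : Type u} [Category.{v} A] [Abelian A] [HasDerivedCategory.{w} A] [EnoughInjectives A]
  {B : Type u'} [Category.{v'} B] [Abelian B] [HasDerivedCategory.{w'} B] (G : A ⥤ B) [G.Additive]

/-- An object of `D^+` whose image in `D` is a single object in degree zero. -/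
noncomputable def isoSingle {M : A} (K : DerivedCategory.Plus A)
    (e : K.obj ≅ (DerivedCategory.singleFunctor A 0).obj M) :
    K ≅ (DerivedCategory.Plus.singleFunctor A 0).obj M :=
  DerivedCategory.Plus.ι.preimageIso e

/-- `H^n (R G K) ≅ R^n G M` for `K ≅ M[0]`, `n ≥ 0`. -/
noncomputable def homologyIso {M : A} (K : DerivedCategory.Plus A)
    (e : K.obj ≅ (DerivedCategory.singleFunctor A 0).obj M) (n : ℕ) :
    (DerivedCategory.homologyFunctor B (n : ℤ)).obj (G.rightDerivedFunctorPlus.obj K).obj ≅
      (G.rightDerived n).obj M :=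
  (DerivedCategory.Plus.homologyFunctor B (n : ℤ)).mapIso
    (G.rightDerivedFunctorPlus.mapIso (isoSingle K e) ≪≫ (RGIso G).app _) ≪≫
    (hSingleIso G n).app M

/-- `H^j (R G K) = 0` for `K ≅ M[0]`, `j < 0`. -/
theorem isZero_homology_of_neg {M : A} (K : DerivedCategory.Plus A)
    (e : K.obj ≅ (DerivedCategory.singleFunctor A 0).obj M) (j : ℤ) (hj : j < 0) :
    IsZero ((DerivedCategory.homologyFunctor B j).obj (G.rightDerivedFunctorPlus.obj K).obj) := by
  let R := injectiveResolution M
  let e1 : (DerivedCategory.homologyFunctor B j).obj (G.rightDerivedFunctorPlus.obj K).obj ≅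
      (HomologicalComplex.homologyFunctor B (.up ℤ) j).obj ((G.mapHomologicalComplex (.up ℤ)).obj
        (((InjectiveObject.ι A).mapHomologicalComplex (.up ℤ)).obj (resPlus R).obj)) :=
    (DerivedCategory.Plus.homologyFunctor B j).mapIso
      (G.rightDerivedFunctorPlus.mapIso (isoSingle K e) ≪≫ (RGIso G).app _ ≪≫ (RG G).mapIso (resIso R)) ≪≫
      (HInj G j).app (resPlus R)
  refine IsZero.of_iso ?_ e1
  have h0 : IsZero (R.cochainComplex.X j) :=
    R.cocomplex.isZero_extend_X ComplexShape.embeddingUpNat j (by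
      intro i hi
      have h2 : ((i : ℕ) : ℤ) = j := hi
      lia)
  have h1 : IsZero (((G.mapHomologicalComplex (.up ℤ)).obj
        (((InjectiveObject.ι A).mapHomologicalComplex (.up ℤ)).obj (resPlus R).obj)).X j) :=
    G.map_isZero h0
  exact (HomologicalComplex.exactAt_iff_isZero_homology _ _).1 (ShortComplex.exact_of_isZero_X₂ _ h1)

end Groth.Agent.Dual.H343.RDPlus
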