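import Groth.Agent.Dual.H343.Mate
import Groth.Agent.Dcoh.MonInst
import Groth.Agent.Dcoh.MonTm
import Groth.Agent.Dcoh.ClosedProj
import Groth.Agent.Dcoh.FlatRes
import Groth.Agent.FormalB.TrKQuot
import Groth.Agent.Dix.IdealModCartier

/-!
# The multiplication `I ⊗ M ⟶ M` and the sequence `I ⊗ M ⟶ M ⟶ i_* i^* M ⟶ 0`

`I` a quasi-coherent ideal sheaf, `i : Z ⟶ X` its closed subscheme; `M` any `O_X`-module.
-/

set_option autoImplicit false
universe u

open CategoryTheory CategoryTheory.Limits AlgebraicGeometry Opposite MonoidalCategory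
open scoped Groth.Agent.Dcoh.MonCat

namespace Groth.Agent.Dual.H343.Setup

open Groth.Agent.Dcoh.MonTm Groth.Agent.FormalB.TrKQuot Groth.Agent.Dix.IdealModSec
open Groth.Agent.Dix.IdealModCartier (exists_affine_mem_le)

variable {X : Scheme.{u}} (I : X.IdealSheafData)

/-- The inclusion of the ideal module into the unit object. -/
noncomputable def inc : ClSub.idealMod I ⟶ 𝟙_ X.Modules := ClSub.idealModι I

instance mono_inc : Mono (inc I) := inferInstanceAs (Mono (kernel.ι _))

/-- Multiplication `I ⊗ M ⟶ M`. -/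
noncomputable def mul (M : X.Modules) : ClSub.idealMod I ⊗ M ⟶ M :=
  (inc I ▷ M) ≫ (λ_ M).hom

/-- Multiplication as a natural transformation. -/
noncomputable def mulNat : tensorLeft (ClSub.idealMod I) ⟶ 𝟭 X.Modules where
  app M := mul I M
  naturality M N f := by
    change ClSub.idealMod I ◁ f ≫ mul I N = mul I M ≫ f
    unfold mul
    rw [Category.assoc, ← leftUnitor_naturality, whisker_exchange_assoc]

theorem mulNat_app (M : X.Modules) : (mulNat I).app M = mul I M := rfl

variable {I}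

theorem mul_tm {M : X.Modules} {U : X.Opens} (a : Γ(ClSub.idealMod I, U)) (m : Γ(M, U)) :
    (mul I M).app U (tm a m) = (show Γ(X, U) from (ClSub.idealModι I).app U a) • m := by
  unfold mul
  rw [comp_ap]
  refine (congrArg ((λ_ M).hom.app U) (whiskerRight_tm (inc I) M a m)).trans ?_
  exact leftUnitor_hom_tm (N := M) _ m

/-- If `I` kills `N` then the multiplication `I ⊗ N ⟶ N` vanishes. -/
theorem mul_eq_zero {N : X.Modules} (hN : ClSub.KilledByIdeal I N) : mul I N = 0 := by
  refine ext₂ _ _ ?_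
  intro U a m
  rw [mul_tm]
  change _ = (0 : Γ(N, U))
  refine Groth.Agent.Ega2.Tens.eq_of_locally_eq N _ _ fun x hx => ?_
  obtain ⟨V, hxV, hV⟩ := exists_affine_mem_le U x hx
  refine ⟨V.1, homOfLE hV, hxV, ?_⟩
  rw [Scheme.Modules.map_smul, map_zero]
  refine hN V _ ?_ _
  have h1 : X.presheaf.map (homOfLE hV).op ((ClSub.idealModι I).app U a) =
      (ClSub.idealModι I).app V.1 ((ClSub.idealMod I).presheaf.map (homOfLE hV).op a) :=
    (Groth.Agent.Fdesc.LocGen.app_res (ClSub.idealModι I) hV a).symm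
  exact h1 ▸ idealModι_app_mem I V _

/-- If the multiplication `I ⊗ N ⟶ N` vanishes then `I` kills `N`. -/
theorem killed_of_mul_eq_zero {N : X.Modules} (h : mul I N = 0) : ClSub.KilledByIdeal I N := by
  intro U a ha m
  obtain ⟨s, hs⟩ := exists_of_mem I U a ha
  have h1 := mul_tm (I := I) (M := N) (U := U.1) s m
  rw [h, hs] at h1
  exact h1.symm

/-- `I ⊗ M ⟶ M ⟶ i_* i^* M` is zero. -/
theorem mul_comp_unit (M : X.Modules) :
    mul I M ≫ (Scheme.Modules.pullbackPushforwardAdjunction I.subschemeι).unit.app M = 0 := by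
  have h1 : ClSub.idealMod I ◁ (kπ I M) ≫ mul I (kq I M) = mul I M ≫ kπ I M :=
    (mulNat I).naturality (kπ I M)
  have h2 : mul I (kq I M) = 0 := mul_eq_zero (killed_pushforward I _)
  rw [h2, comp_zero] at h1
  exact h1.symm

/-- Any map killing `I M` factors through `M ⟶ i_* i^* M`. -/
theorem exists_fac {A B : X.Modules} (g : A ⟶ B) (hg : mul I A ≫ g = 0) :
    ∃ g' : (Scheme.Modules.pushforward I.subschemeι).obj ((Scheme.Modules.pullback I.subschemeι).obj A) ⟶ B,
      (Scheme.Modules.pullbackPushforwardAdjunction I.subschemeι).unit.app A ≫ g' = g := by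
  let π := cokernel.π (mul I A)
  have h1 : ClSub.idealMod I ◁ π ≫ mul I (cokernel (mul I A)) = mul I A ≫ π :=
    (mulNat I).naturality π
  have h2 : mul I A ≫ π = 0 := cokernel.condition _
  have h3 : Epi (ClSub.idealMod I ◁ π) :=
    inferInstanceAs (Epi ((DCoh.tensorBi.obj (ClSub.idealMod I)).map π))
  have h4 : mul I (cokernel (mul I A)) = 0 := by
    rw [← cancel_epi (ClSub.idealMod I ◁ π), h1, h2, comp_zero]
  have h5 : IsIso (kπ I (cokernel (mul I A))) := isIso_kπ I (killed_of_mul_eq_zero h4)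
  let v : kq I (cokernel (mul I A)) ⟶ cokernel (mul I A) := inv (kπ I (cokernel (mul I A)))
  have hv : kπ I (cokernel (mul I A)) ≫ v = 𝟙 _ := IsIso.hom_inv_id _
  let p : kq I A ⟶ kq I (cokernel (mul I A)) := (Scheme.Modules.pushforward I.subschemeι).map
      ((Scheme.Modules.pullback I.subschemeι).map π)
  have h6 : kπ I A ≫ p = π ≫ kπ I (cokernel (mul I A)) :=
    ((Scheme.Modules.pullbackPushforwardAdjunction I.subschemeι).unit.naturality π).symm
  have h7 : kπ I A ≫ p ≫ v ≫ cokernel.desc (mul I A) g hg = g := by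
    rw [← Category.assoc, h6, Category.assoc, ← Category.assoc _ v, hv, Category.id_comp, cokernel.π_desc]
  exact ⟨p ≫ v ≫ cokernel.desc (mul I A) g hg, h7⟩

/-- The multiplication `I ⊗ A ⟶ A` is mono for `A` flat. -/
theorem mono_mul {A : X.Modules} (hA : FlatMod.IsFlat A) : Mono (mul I A) := by
  have h1 := Groth.Agent.Dcoh.Stalk.preservesFiniteLimits_tensorBi_flip_obj A hA
  have h3 : Mono (inc I ▷ A) :=
    inferInstanceAs (Mono ((DCoh.tensorBi.flip.obj A).map (inc I)))
  unfold mul
  infer_instance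

/-- Enough objects with `I ⊗ A ⟶ A` mono. -/
theorem exists_cover (B : X.Modules) : ∃ (A : X.Modules) (π : A ⟶ B), Epi π ∧ Mono ((mulNat I).app A) := by
  obtain ⟨A, π, hA, hπ⟩ := Groth.Agent.Dcoh.FlatRes.exists_flat_epi B
  exact ⟨A, π, hπ, mono_mul hA⟩

/-- `I ⊗ O_X ⟶ O_X` is mono. -/
theorem mono_mul_structure : Mono (mul I (𝟙_ X.Modules)) := by
  have h3 : mul I (𝟙_ X.Modules) = (ρ_ (ClSub.idealMod I)).hom ≫ inc I := by
    unfold mul
    rw [← rightUnitor_naturality, unitors_equal]
  rw [h3]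
  infer_instance

end Groth.Agent.Dual.H343.Setup
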